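import Cfsg.Agent.H527.C3.Str

/-!
# S1920, classical groups, section 4: the structure lemma for `W ≃ₗ[K] W` (helper527)

`isomsL h : Subgroup (W ≃ₗ[K] W)`.  `structureL_sym`, `structureL_alt`.
-/

set_option autoImplicit false

open Subgroup
open scoped commutatorElement

namespace Cfsg.Agent.H527.C3

variable {K W : Type*} [Field K] [AddCommGroup W] [Module K W]

/-- The isometry group of a bilinear form, in `W ≃ₗ[K] W`. -/
def isomsL (h : LinearMap.BilinForm K W) : Subgroup (W ≃ₗ[K] W) where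
  carrier := {g | ∀ u v : W, h (g u) (g v) = h u v}
  mul_mem' := by
    intro a b ha hb u v
    rw [LinearEquiv.mul_apply, LinearEquiv.mul_apply, ha, hb]
  one_mem' := by
    intro u v
    rfl
  inv_mem' := by
    intro a ha u v
    have h1 := ha (a⁻¹ u) (a⁻¹ v)
    have h2 : ∀ w : W, a (a⁻¹ w) = w := fun w => a.apply_symm_apply w
    rw [h2, h2] at h1
    exact h1.symm

theorem mem_isomsL {h : LinearMap.BilinForm K W} {g : W ≃ₗ[K] W} :
    g ∈ isomsL h ↔ ∀ u v : W, h (g u) (g v) = h u v := Iff.rfl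

/-- The situation of section 4. -/
structure DatL (h : LinearMap.BilinForm K W) (NN : Subgroup (W ≃ₗ[K] W)) (J : W ≃ₗ[K] W) : Prop where
  two : (2 : K) ≠ 0
  sym : ∀ u v, h u v = h v u
  nd : ∀ u, (∀ v, h u v = 0) → u = 0
  iso : ∀ n ∈ NN, ∀ u v, h (n u) (n v) = h u v
  J_mem : J ∈ NN
  J_sq : ∀ u, J (J u) = -u
  sq : ∀ n ∈ NN, (∀ u, n (n u) = u) ∨ (∀ u, n (n u) = -u)
  comm : ∀ n ∈ NN, ∀ m ∈ NN, (∀ u, n (m u) = m (n u)) ∨ (∀ u, n (m u) = -m (n u))
  cen : ∀ n ∈ NN, ∀ u, n (J u) = J (n u)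

/-- three planes -/
structure ThreeL (h : LinearMap.BilinForm K W) (NN : Subgroup (W ≃ₗ[K] W)) (J : W ≃ₗ[K] W)
    (v : Fin 3 → W) (j : Fin 3 → (W ≃ₗ[K] W)) : Prop where
  iso : ∀ k, j k ∈ isomsL h
  nn : ∀ k, ∀ n ∈ NN, n * j k = j k * n
  comm : ∀ k i, j k * j i = j i * j k
  norm : ∀ k, h (v k) (v k) = 1
  self : ∀ k, j k (v k) = J (v k)
  selfJ : ∀ k, j k (J (v k)) = -v k
  other : ∀ k i, k ≠ i → j k (v i) = v i
  otherJ : ∀ k i, k ≠ i → j k (J (v i)) = J (v i)
  four : ∀ k, j k ^ 4 = 1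
  mem2 : ∀ k i, j k * j i ∈ ⁅isomsL h, isomsL h⁆
  mem1 : (∃ n ∈ NN, ∃ m ∈ NN, n * m ≠ m * n) → ∀ k, j k ∈ ⁅isomsL h, isomsL h⁆

/-- the twisting isometry -/
structure TwL (h : LinearMap.BilinForm K W) (NN EE : Subgroup (W ≃ₗ[K] W)) (J t : W ≃ₗ[K] W) : Prop where
  iso : t ∈ isomsL h
  antiJ : ∀ u, t (J u) = -J (t u)
  nn : ∀ n ∈ NN, (∀ u, t (n u) = n (t u)) ∨ (∀ u, t (n u) = -n (t u))
  ee : ∀ g ∈ EE, g * t = t * g
  mem : t ∈ ⁅isomsL h, isomsL h⁆ ∨
    ((∀ n ∈ NN, ∀ m ∈ NN, n * m = m * n) ∧ EE = ⊥ ∧ ∃ v : W, h v v = 1 ∧ ∀ u : W, ∃ x y : K, u = x • v + y • J v)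

/-- the isomorphism -/
noncomputable def toL (K W : Type*) [Field K] [AddCommGroup W] [Module K W] : (Module.End K W)ˣ ≃* (W ≃ₗ[K] W) :=
  LinearMap.GeneralLinearGroup.generalLinearEquiv K W

theorem toL_apply (g : (Module.End K W)ˣ) (u : W) : toL K W g u = g • u := rfl

theorem toL_symm_smul (g : W ≃ₗ[K] W) (u : W) : (toL K W).symm g • u = g u := by
  rw [← toL_apply, MulEquiv.apply_symm_apply]

theorem isoms_comap (h : LinearMap.BilinForm K W) : isoms h = (isomsL h).comap (toL K W).toMonoidHom := rfl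

theorem isomsL_map (h : LinearMap.BilinForm K W) : (isoms h).map (toL K W).toMonoidHom = isomsL h := by
  rw [isoms_comap]
  exact map_comap_eq_self_of_surjective (toL K W).surjective _

theorem comm_mem {h : LinearMap.BilinForm K W} {g : (Module.End K W)ˣ} (hg : g ∈ ⁅isoms h, isoms h⁆) :
    toL K W g ∈ ⁅isomsL h, isomsL h⁆ := by
  rw [← isomsL_map, ← map_commutator]
  exact mem_map_of_mem _ hg

theorem comap_commutator (EE : Subgroup (W ≃ₗ[K] W)) :
    ⁅EE.comap (toL K W).toMonoidHom, EE.comap (toL K W).toMonoidHom⁆ = (⁅EE, EE⁆).comap (toL K W).toMonoidHom := by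
  have h1 : ∀ X : Subgroup (W ≃ₗ[K] W), X.comap (toL K W).toMonoidHom = X.map (toL K W).symm.toMonoidHom := by
    intro X
    exact comap_equiv_eq_map_symm (toL K W) X
  rw [h1, h1, map_commutator]

/-- **The structure lemma**, symmetric form, for `W ≃ₗ[K] W`. -/
theorem structureL_sym [Finite K] [Finite W] [Nontrivial W] {h : LinearMap.BilinForm K W}
    {NN : Subgroup (W ≃ₗ[K] W)} {J : W ≃ₗ[K] W} (D : DatL h NN J) {EE : Subgroup (W ≃ₗ[K] W)}
    (hp : ⁅EE, EE⁆ = EE) (hE : ∀ g ∈ EE, ∀ u v, h (g u) (g v) = h u v) (hEN : ∀ g ∈ EE, ∀ n ∈ NN, n * g = g * n) :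
    (∃ (v : Fin 3 → W) (j : Fin 3 → (W ≃ₗ[K] W)), ThreeL h NN J v j) ∨ (∃ t, TwL h NN EE J t) := by
  obtain ⟨J', hJ'⟩ : ∃ J' : (Module.End K W)ˣ, toL K W J' = J := ⟨(toL K W).symm J, MulEquiv.apply_symm_apply _ _⟩
  subst hJ'
  have hneg : ∀ g : (Module.End K W)ˣ, ∀ g' : (Module.End K W)ˣ, (∀ u : W, g • u = -(g' • u)) → g = -g' :=
    fun g g' h1 => Units.ext (LinearMap.ext fun u => by
      have := h1 u
      rw [← Units.neg_smul] at this
      exact this)
  have heq : ∀ g : (Module.End K W)ˣ, ∀ g' : (Module.End K W)ˣ, (∀ u : W, g • u = g' • u) → g = g' :=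
    fun g g' h1 => Units.ext (LinearMap.ext fun u => h1 u)
  have hJJ : J' * J' = -1 := hneg _ _ fun u => by
    rw [mul_smul, one_smul]; exact D.J_sq u
  have D' : Dat h (NN.comap (toL K W).toMonoidHom) J' := by
    refine ⟨D.two, D.sym, D.nd, fun n hn => D.iso _ hn, ?_, D.J_mem, hJJ, fun n hn => ?_, fun n hn m hm => ?_,
      fun n hn => ?_⟩
    · rw [← hJJ]
      exact Subgroup.mul_mem (NN.comap (toL K W).toMonoidHom) D.J_mem D.J_mem
    · rcases D.sq _ hn with h1 | h1
      · left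
        refine heq _ _ fun u => ?_
        rw [mul_smul, one_smul]; exact h1 u
      · right
        refine hneg _ _ fun u => ?_
        rw [mul_smul, one_smul]; exact h1 u
    · rcases D.comm _ hn _ hm with h1 | h1
      · left
        refine heq _ _ fun u => ?_
        rw [mul_smul, mul_smul]; exact h1 u
      · right
        refine hneg _ _ fun u => ?_
        rw [mul_smul, mul_smul]; exact h1 u
    · refine heq _ _ fun u => ?_
      rw [mul_smul, mul_smul]; exact D.cen _ hn u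
  have hp' : ⁅EE.comap (toL K W).toMonoidHom, EE.comap (toL K W).toMonoidHom⁆ = EE.comap (toL K W).toMonoidHom := by
    rw [comap_commutator, hp]
  have hE' : EE.comap (toL K W).toMonoidHom ≤ cen h (NN.comap (toL K W).toMonoidHom) := by
    intro g hg
    rw [mem_cen]
    refine ⟨hE _ hg, fun n hn => ?_⟩
    apply (toL K W).injective
    rw [map_mul, map_mul]
    exact hEN _ hg _ hn
  have hsymm : ∀ n ∈ NN, (toL K W).symm n ∈ NN.comap (toL K W).toMonoidHom := fun n hn => by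
    change toL K W ((toL K W).symm n) ∈ NN
    rw [MulEquiv.apply_symm_apply]; exact hn
  rcases structure_sym D' hp' hE' with ⟨v, j, T⟩ | ⟨t, T⟩
  · left
    refine ⟨v, fun k => toL K W (j k), ⟨fun k => T.iso k, fun k n hn => ?_, fun k i => ?_, T.norm, T.self, T.selfJ,
      T.other, T.otherJ, fun k => ?_, fun k i => ?_, fun hnc k => comm_mem (T.mem1 ?_ k)⟩⟩
    · have h1 := congrArg (toL K W) (T.nn k _ (hsymm n hn))
      rwa [map_mul, map_mul, MulEquiv.apply_symm_apply] at h1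
    · rw [← map_mul, T.comm, map_mul]
    · rw [← map_pow, T.four, map_one]
    · rw [← map_mul]
      exact comm_mem (T.mem2 k i)
    · obtain ⟨n, hn, m, hm, hnm⟩ := hnc
      refine ⟨_, hsymm n hn, _, hsymm m hm, fun h1 => hnm ?_⟩
      have h2 := congrArg (toL K W) h1
      rwa [map_mul, map_mul, MulEquiv.apply_symm_apply, MulEquiv.apply_symm_apply] at h2
  · right
    refine ⟨toL K W t, ⟨T.iso, fun u => ?_, fun n hn => ?_, fun g hg => ?_, ?_⟩⟩
    · have h1 : (t * J') • u = -(J' * t) • u := by rw [T.antiJ]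
      rw [mul_smul, Units.neg_smul, mul_smul] at h1
      exact h1
    · rcases T.nn _ (hsymm n hn) with h1 | h1
      · left
        intro u
        have h2 : (t * (toL K W).symm n) • u = ((toL K W).symm n * t) • u := by rw [h1]
        rw [mul_smul, mul_smul, toL_symm_smul, toL_symm_smul] at h2
        exact h2
      · right
        intro u
        have h2 : (t * (toL K W).symm n) • u = (-((toL K W).symm n * t)) • u := by rw [h1]
        rw [mul_smul, Units.neg_smul, mul_smul, toL_symm_smul, toL_symm_smul] at h2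
        exact h2
    · have hg' : (toL K W).symm g ∈ EE.comap (toL K W).toMonoidHom := by
        change toL K W ((toL K W).symm g) ∈ EE
        rw [MulEquiv.apply_symm_apply]; exact hg
      have h1 := congrArg (toL K W) (T.ee _ hg')
      rwa [map_mul, map_mul, MulEquiv.apply_symm_apply] at h1
    · rcases T.mem with h1 | ⟨h1, h2, h3⟩
      · exact Or.inl (comm_mem h1)
      · right
        refine ⟨fun n hn m hm => ?_, ?_, h3⟩
        · have h4 := congrArg (toL K W) (h1 _ (hsymm n hn) _ (hsymm m hm))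
          rwa [map_mul, map_mul, MulEquiv.apply_symm_apply, MulEquiv.apply_symm_apply] at h4
        · rw [eq_bot_iff]
          intro g hg
          have hg' : (toL K W).symm g ∈ EE.comap (toL K W).toMonoidHom := by
            change toL K W ((toL K W).symm g) ∈ EE
            rw [MulEquiv.apply_symm_apply]; exact hg
          rw [h2, mem_bot] at hg'
          rw [mem_bot, ← MulEquiv.apply_symm_apply (toL K W) g, hg', map_one]

/-- The situation of section 4, alternating form. -/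
structure DatA (B : LinearMap.BilinForm K W) (NN : Subgroup (W ≃ₗ[K] W)) (J : W ≃ₗ[K] W) : Prop where
  two : (2 : K) ≠ 0
  alt : ∀ u v, B u v = -B v u
  nd : ∀ u, (∀ v, B u v = 0) → u = 0
  iso : ∀ n ∈ NN, ∀ u v, B (n u) (n v) = B u v
  J_mem : J ∈ NN
  J_sq : ∀ u, J (J u) = -u
  sq : ∀ n ∈ NN, (∀ u, n (n u) = u) ∨ (∀ u, n (n u) = -u)
  comm : ∀ n ∈ NN, ∀ m ∈ NN, (∀ u, n (m u) = m (n u)) ∨ (∀ u, n (m u) = -m (n u))
  cen : ∀ n ∈ NN, ∀ u, n (J u) = J (n u)

/-- **The structure lemma**, alternating form, for `W ≃ₗ[K] W`: three planes, or an isometry `t` with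
`t J = - J t`, `t n = ± n t` for `n ∈ NN`, commuting with `EE`. -/
theorem structureL_alt [Finite K] [Finite W] [Nontrivial W] {B : LinearMap.BilinForm K W}
    {NN : Subgroup (W ≃ₗ[K] W)} {J : W ≃ₗ[K] W} (D : DatA B NN J) {EE : Subgroup (W ≃ₗ[K] W)}
    (hp : ⁅EE, EE⁆ = EE) (hE : ∀ g ∈ EE, ∀ u v, B (g u) (g v) = B u v) (hEN : ∀ g ∈ EE, ∀ n ∈ NN, n * g = g * n) :
    (∃ (v : Fin 3 → W) (j : Fin 3 → (W ≃ₗ[K] W)), (∀ k, j k ∈ isomsL B) ∧ (∀ k, ∀ n ∈ NN, n * j k = j k * n) ∧
      (∀ k i, j k * j i = j i * j k) ∧ (∀ k, B (v k) (J (v k)) = 1) ∧ (∀ k, j k (v k) = J (v k)) ∧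
      (∀ k, j k (J (v k)) = -v k) ∧ (∀ k i, k ≠ i → j k (v i) = v i) ∧ (∀ k i, k ≠ i → j k (J (v i)) = J (v i)) ∧
      (∀ k, j k ^ 4 = 1)) ∨
    (∃ t : W ≃ₗ[K] W, t ∈ isomsL B ∧ (∀ u, t (J u) = -J (t u)) ∧
      (∀ n ∈ NN, (∀ u, t (n u) = n (t u)) ∨ (∀ u, t (n u) = -n (t u))) ∧ (∀ g ∈ EE, g * t = t * g)) := by
  obtain ⟨h, hh⟩ : ∃ h : LinearMap.BilinForm K W, ∀ u v, h u v = B u (J v) :=
    ⟨B.compl₂ (J : W →ₗ[K] W), fun u v => rfl⟩
  have hBJ : ∀ u v, B (J u) v = -B u (J v) := fun u v => by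
    rw [← D.iso J D.J_mem u (J v), D.J_sq, map_neg, neg_neg]
  have hBh : ∀ u v, B u v = -h u (J v) := fun u v => by rw [hh, D.J_sq, map_neg, neg_neg]
  have hcenJ : ∀ g : W ≃ₗ[K] W, (∀ n ∈ NN, n * g = g * n) → ∀ u, g (J u) = J (g u) := fun g hg u =>
    (congrArg (fun f : W ≃ₗ[K] W => f u) (hg J D.J_mem)).symm
  have hiso : ∀ g : W ≃ₗ[K] W, (∀ u, g (J u) = J (g u)) → ((∀ u v, B (g u) (g v) = B u v) ↔
      ∀ u v, h (g u) (g v) = h u v) := by
    intro g hg
    constructor
    · intro h1 u v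
      rw [hh, hh, ← hg, h1]
    · intro h1 u v
      rw [hBh, hBh, ← hg, h1]
  have D' : DatL h NN J := by
    refine ⟨D.two, fun u v => ?_, fun u hu => D.nd u fun v => ?_, fun n hn => (hiso n (D.cen n hn)).1 (D.iso n hn),
      D.J_mem, D.J_sq, D.sq, D.comm, D.cen⟩
    · rw [hh, hh, D.alt u (J v), hBJ, neg_neg]
    · rw [hBh, hu, neg_zero]
  have hE' : ∀ g ∈ EE, ∀ u v, h (g u) (g v) = h u v := fun g hg =>
    (hiso g (hcenJ g (hEN g hg))).1 (hE g hg)
  rcases structureL_sym D' hp hE' hEN with ⟨v, j, T⟩ | ⟨t, T⟩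
  · left
    exact ⟨v, j, fun k => (hiso (j k) (hcenJ (j k) (T.nn k))).2 (T.iso k), T.nn, T.comm,
      fun k => (hh _ _).symm.trans (T.norm k), T.self, T.selfJ, T.other, T.otherJ, T.four⟩
  · right
    obtain ⟨x, y, hxy⟩ := exists_two_sq D.two (-1)
    -- `x + y J`
    have hxJ : ∀ u, x • (x • u + y • J u) - y • J (x • u + y • J u) = -u := by
      intro u
      rw [map_add, LinearEquiv.map_smul, LinearEquiv.map_smul, D.J_sq]
      have h1 : x • (x • u + y • J u) - y • (x • J u + y • -u) = (x ^ 2 + y ^ 2) • u := by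
        generalize J u = w
        module
      rw [h1, hxy, neg_smul, one_smul]
    have hxJ' : ∀ u, x • (x • u - y • J u) + y • J (x • u - y • J u) = -u := by
      intro u
      rw [map_sub, LinearEquiv.map_smul, LinearEquiv.map_smul, D.J_sq]
      have h1 : x • (x • u - y • J u) + y • (x • J u - y • -u) = (x ^ 2 + y ^ 2) • u := by
        generalize J u = w
        module
      rw [h1, hxy, neg_smul, one_smul]
    obtain ⟨d, hd⟩ : ∃ d : W ≃ₗ[K] W, ∀ u, d u = x • u + y • J u := by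
      refine ⟨LinearEquiv.ofLinearMap (x • LinearMap.id + y • (J : W →ₗ[K] W)) (-(x • LinearMap.id - y • (J : W →ₗ[K] W)))
        ?_ ?_, fun u => rfl⟩
      · refine LinearMap.ext fun u => ?_
        change x • (-(x • u - y • J u)) + y • J (-(x • u - y • J u)) = u
        rw [map_neg, smul_neg, smul_neg, ← neg_add, hxJ', neg_neg]
      · refine LinearMap.ext fun u => ?_
        change -(x • (x • u + y • J u) - y • J (x • u + y • J u)) = u
        rw [hxJ, neg_neg]
    have hBB : ∀ u v, B (t u) (t v) = -B u v := by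
      intro u v
      have h1 : J (t v) = -t (J v) := by rw [T.antiJ, neg_neg]
      rw [hBh, h1, map_neg, neg_neg, T.iso, hBh, neg_neg]
    have hdd : ∀ u v, B (d u) (d v) = -B u v := by
      intro u v
      rw [hd, hd]
      have h1 : B (x • u + y • J u) (x • v + y • J v) =
          x * (x * B u v) + x * (y * B u (J v)) + (y * (x * B (J u) v) + y * (y * B (J u) (J v))) := by
        rw [LinearMap.map_add₂, map_add, map_add]
        simp only [LinearMap.map_smul, LinearMap.smul_apply, smul_eq_mul]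
      rw [h1, hBJ u v, D.iso J D.J_mem]
      linear_combination (B u v) * hxy
    refine ⟨d * t, fun u v => ?_, fun u => ?_, fun n hn => ?_, fun g hg => ?_⟩
    · rw [LinearEquiv.mul_apply, LinearEquiv.mul_apply, hdd, hBB, neg_neg]
    · rw [LinearEquiv.mul_apply, LinearEquiv.mul_apply, T.antiJ, map_neg, hd, hd, map_add, LinearEquiv.map_smul,
        LinearEquiv.map_smul]
    · have hdn : ∀ u, d (n u) = n (d u) := fun u => by
        rw [hd, hd, map_add, LinearEquiv.map_smul, LinearEquiv.map_smul, D.cen n hn]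
      rcases T.nn n hn with h1 | h1
      · left
        intro u
        rw [LinearEquiv.mul_apply, LinearEquiv.mul_apply, h1, hdn]
      · right
        intro u
        rw [LinearEquiv.mul_apply, LinearEquiv.mul_apply, h1, map_neg, hdn]
    · have hgJ := hcenJ g (hEN g hg)
      have h1 := T.ee g hg
      refine LinearEquiv.ext fun u => ?_
      have h2 : ∀ u, g (t u) = t (g u) := fun u => congrArg (fun f : W ≃ₗ[K] W => f u) h1
      rw [LinearEquiv.mul_apply, LinearEquiv.mul_apply, LinearEquiv.mul_apply, LinearEquiv.mul_apply, hd, hd, map_add,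
        LinearEquiv.map_smul, LinearEquiv.map_smul, hgJ, h2]

end Cfsg.Agent.H527.C3
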