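import Cfsg.Agent.H527.C3.Com

/-!
# S1920, classical groups, section 4: the case `NN` commutative (helper527)
-/

set_option autoImplicit false

open Subgroup
open scoped commutatorElement

namespace Cfsg.Agent.H527.C3

variable {K W : Type*} [Field K] [AddCommGroup W] [Module K W]

namespace Full

variable {h : LinearMap.BilinForm K W} {NN : Subgroup (Module.End K W)ˣ} [Fintype ↥NN] {J : (Module.End K W)ˣ}
variable {A : Subgroup (Module.End K W)ˣ} {S : Finset W} {c : (Module.End K W)ˣ → K}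

theorem smul_cases (F : Full h NN J A S c) (hcm : ∀ n ∈ NN, n ∈ A) {v : W} (hv : v ∈ S) {m : (Module.End K W)ˣ}
    (hm : m ∈ NN) : m • v = v ∨ m • v = -v ∨ m • v = J • v ∨ m • v = -(J • v) := by
  have hA := hcm m hm
  rcases F.D.sq m hm with h1 | h1
  · rcases F.Y.eig v hv m hA h1 with h2 | h2
    · exact Or.inl h2
    · exact Or.inr (Or.inl h2)
  · have h3 : (J * m) * (J * m) = 1 := by
      calc J * m * (J * m) = J * (m * J) * m := by group
        _ = J * (J * m) * m := by rw [F.M.comm m hA J F.M.J_mem]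
        _ = (J * J) * (m * m) := by group
        _ = 1 := by rw [F.D.J_sq, h1]; simp
    have h7 : ∀ y : W, (J * m) • v = y → m • v = -(J • y) := by
      intro y hy
      rw [← hy, mul_smul, F.D.JJ, neg_neg]
    rcases F.Y.eig v hv (J * m) (mul_mem F.M.J_mem hA) h3 with h4 | h4
    · exact Or.inr (Or.inr (Or.inr (h7 _ h4)))
    · refine Or.inr (Or.inr (Or.inl ?_))
      rw [h7 _ h4, smul_neg, neg_neg]

/-- two linear maps which agree on all `v` and `J v` are equal -/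
theorem ext2 (F : Full h NN J A S c) (hcm : ∀ n ∈ NN, n ∈ A) {f g : (Module.End K W)ˣ}
    (h1 : ∀ v ∈ S, f • v = g • v) (h2 : ∀ v ∈ S, f • J • v = g • J • v) : f = g := by
  refine Units.ext (F.ext fun v hv m hm => ?_)
  change f • m • v = g • m • v
  rcases F.smul_cases hcm hv hm with h3 | h3 | h3 | h3
  · rw [h3, h1 v hv]
  · rw [h3, smul_neg, smul_neg, h1 v hv]
  · rw [h3, h2 v hv]
  · rw [h3, smul_neg, smul_neg, h2 v hv]

theorem o1 (F : Full h NN J A S c) {v : W} (hv : v ∈ S) : h v v = 1 := F.Y.one v hv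
theorem o2 (F : Full h NN J A S c) (v : W) : h (J • v) v = 0 := F.D.hJ_self v
theorem o3 (F : Full h NN J A S c) (v : W) : h v (J • v) = 0 := by rw [F.D.sym]; exact F.D.hJ_self v
theorem o4 (F : Full h NN J A S c) {v : W} (hv : v ∈ S) : h (J • v) (J • v) = 1 := by rw [F.D.hJ]; exact F.o1 hv
theorem p1 (F : Full h NN J A S c) {v w : W} (hv : v ∈ S) (hw : w ∈ S) (hvw : v ≠ w) : h v w = 0 := by
  have := F.Y.orth v hv w hw hvw 1 (one_mem NN)
  rwa [one_smul] at this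
theorem p2 (F : Full h NN J A S c) {v w : W} (hv : v ∈ S) (hw : w ∈ S) (hvw : v ≠ w) : h (J • v) w = 0 :=
  F.Y.orth v hv w hw hvw J F.D.J_mem
theorem p3 (F : Full h NN J A S c) {v w : W} (hv : v ∈ S) (hw : w ∈ S) (hvw : v ≠ w) : h v (J • w) = 0 := by
  rw [F.D.sym]; exact F.p2 hw hv (Ne.symm hvw)
theorem p4 (F : Full h NN J A S c) {v w : W} (hv : v ∈ S) (hw : w ∈ S) (hvw : v ≠ w) : h (J • v) (J • w) = 0 := by
  rw [F.D.hJ]; exact F.p1 hv hw hvw

theorem n1 (F : Full h NN J A S c) {v : W} (hv : v ∈ S) : (2 : K) * h v v = 2 := by rw [F.o1 hv, mul_one]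
theorem n1' (F : Full h NN J A S c) {v : W} (hv : v ∈ S) : (2 : K) * h (J • v) (J • v) = 2 := by
  rw [F.o4 hv, mul_one]
theorem n2 (F : Full h NN J A S c) {v w : W} (hv : v ∈ S) (hw : w ∈ S) (hvw : v ≠ w) :
    (1 : K) * h (v - w) (v - w) = 2 := by
  rw [LinearMap.map_sub₂, map_sub, map_sub, F.o1 hv, F.o1 hw, F.p1 hv hw hvw, F.p1 hw hv (Ne.symm hvw)]; ring
theorem n2' (F : Full h NN J A S c) {v w : W} (hv : v ∈ S) (hw : w ∈ S) (hvw : v ≠ w) :
    (1 : K) * h (J • v - J • w) (J • v - J • w) = 2 := by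
  rw [LinearMap.map_sub₂, map_sub, map_sub, F.o4 hv, F.o4 hw, F.p4 hv hw hvw, F.p4 hw hv (Ne.symm hvw)]; ring

/-- the swap `v ↔ w`, `J v ↔ J w` -/
def sw (F : Full h NN J A S c) {v w : W} (hv : v ∈ S) (hw : w ∈ S) (hvw : v ≠ w) : (Module.End K W)ˣ :=
  rf h (v - w) 1 (F.n2 hv hw hvw) * rf h (J • v - J • w) 1 (F.n2' hv hw hvw)

theorem sw_iso (F : Full h NN J A S c) {v w : W} (hv : v ∈ S) (hw : w ∈ S) (hvw : v ≠ w) :
    F.sw hv hw hvw ∈ isoms h := mul_mem (rf_iso F.D.sym _ _ _) (rf_iso F.D.sym _ _ _)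

theorem sw_v (F : Full h NN J A S c) {v w : W} (hv : v ∈ S) (hw : w ∈ S) (hvw : v ≠ w) :
    F.sw hv hw hvw • v = w := by
  have e1 : rf h (J • v - J • w) 1 (F.n2' hv hw hvw) • v = v := by
    rw [rf_smul, LinearMap.map_sub₂, F.o2, F.p2 hw hv (Ne.symm hvw)]; simp
  rw [sw, mul_smul, e1, rf_smul, LinearMap.map_sub₂, F.o1 hv, F.p1 hw hv (Ne.symm hvw)]; simp

theorem sw_w (F : Full h NN J A S c) {v w : W} (hv : v ∈ S) (hw : w ∈ S) (hvw : v ≠ w) :
    F.sw hv hw hvw • w = v := by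
  have e1 : rf h (J • v - J • w) 1 (F.n2' hv hw hvw) • w = w := by
    rw [rf_smul, LinearMap.map_sub₂, F.o2, F.p2 hv hw hvw]; simp
  rw [sw, mul_smul, e1, rf_smul, LinearMap.map_sub₂, F.o1 hw, F.p1 hv hw hvw]; simp

theorem sw_Jv (F : Full h NN J A S c) {v w : W} (hv : v ∈ S) (hw : w ∈ S) (hvw : v ≠ w) :
    F.sw hv hw hvw • J • v = J • w := by
  have e1 : rf h (J • v - J • w) 1 (F.n2' hv hw hvw) • J • v = J • w := by
    rw [rf_smul, LinearMap.map_sub₂, F.o4 hv, F.p4 hw hv (Ne.symm hvw)]; simp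
  rw [sw, mul_smul, e1, rf_smul, LinearMap.map_sub₂, F.o3, F.p3 hv hw hvw]; simp

theorem sw_Jw (F : Full h NN J A S c) {v w : W} (hv : v ∈ S) (hw : w ∈ S) (hvw : v ≠ w) :
    F.sw hv hw hvw • J • w = J • v := by
  have e1 : rf h (J • v - J • w) 1 (F.n2' hv hw hvw) • J • w = J • v := by
    rw [rf_smul, LinearMap.map_sub₂, F.o4 hw, F.p4 hv hw hvw]; simp
  rw [sw, mul_smul, e1, rf_smul, LinearMap.map_sub₂, F.o3, F.p3 hw hv (Ne.symm hvw)]; simp

theorem sw_x (F : Full h NN J A S c) {v w x : W} (hv : v ∈ S) (hw : w ∈ S) (hvw : v ≠ w) (hx : x ∈ S)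
    (hxv : v ≠ x) (hxw : w ≠ x) : F.sw hv hw hvw • x = x := by
  have e1 : rf h (J • v - J • w) 1 (F.n2' hv hw hvw) • x = x := by
    rw [rf_smul, LinearMap.map_sub₂, F.p2 hv hx hxv, F.p2 hw hx hxw]; simp
  rw [sw, mul_smul, e1, rf_smul, LinearMap.map_sub₂, F.p1 hv hx hxv, F.p1 hw hx hxw]; simp

theorem sw_Jx (F : Full h NN J A S c) {v w x : W} (hv : v ∈ S) (hw : w ∈ S) (hvw : v ≠ w) (hx : x ∈ S)
    (hxv : v ≠ x) (hxw : w ≠ x) : F.sw hv hw hvw • J • x = J • x := by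
  have e1 : rf h (J • v - J • w) 1 (F.n2' hv hw hvw) • J • x = J • x := by
    rw [rf_smul, LinearMap.map_sub₂, F.p4 hv hx hxv, F.p4 hw hx hxw]; simp
  rw [sw, mul_smul, e1, rf_smul, LinearMap.map_sub₂, F.p3 hv hx hxv, F.p3 hw hx hxw]; simp

theorem jv_sw (F : Full h NN J A S c) (hcm : ∀ n ∈ NN, n ∈ A) {v w : W} (hv : v ∈ S) (hw : w ∈ S) (hvw : v ≠ w) :
    F.sw hv hw hvw * F.jv hv * (F.sw hv hw hvw)⁻¹ = F.jv hw := by
  classical
  rw [mul_inv_eq_iff_eq_mul]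
  refine F.ext2 hcm (fun x hx => ?_) fun x hx => ?_
  · rw [mul_smul, mul_smul]
    by_cases h1 : v = x
    · subst h1
      rw [F.jv_self, F.sw_Jv, F.sw_v, F.jv_self]
    · by_cases h2 : w = x
      · subst h2
        rw [F.jv_other hv hw h1, F.sw_w, F.jv_other hw hv (Ne.symm hvw)]
      · rw [F.jv_other hv hx h1, F.sw_x hv hw hvw hx h1 h2, F.jv_other hw hx h2]
  · rw [mul_smul, mul_smul]
    by_cases h1 : v = x
    · subst h1
      rw [F.jv_Jself, F.sw_Jv, F.jv_Jself, smul_neg, F.sw_v]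
    · by_cases h2 : w = x
      · subst h2
        rw [F.jv_Jother hv hw h1, F.sw_Jw, F.jv_Jother hw hv (Ne.symm hvw)]
      · rw [F.jv_Jother hv hx h1, F.sw_Jx hv hw hvw hx h1 h2, F.jv_Jother hw hx h2]

/-- `j_v j_w ∈ ⁅I, I⁆` -/
theorem jv_jv_mem (F : Full h NN J A S c) {v w : W} (hv : v ∈ S) (hw : w ∈ S) :
    F.jv hv * F.jv hw ∈ ⁅isoms h, isoms h⁆ := by
  classical
  by_cases hvw : v = w
  · subst hvw
    exact F.jv_sq_mem hv
  by_cases hcm : ∀ n ∈ NN, n ∈ A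
  · rw [← F.jv_sw hcm hv hw hvw]
    exact mul_conj_mem (F.jv_iso hv) (F.sw_iso hv hw hvw) F.Tu_iso (F.jv_conj hv)
  · push Not at hcm
    exact mul_mem (F.jv_mem hcm hv) (F.jv_mem hcm hw)

theorem T_v (F : Full h NN J A S c) {v : W} (hv : v ∈ S) : F.Tu • v = v := by
  have h2 := F.T_self hv (one_mem NN)
  rw [one_smul, F.c_one, one_smul] at h2
  exact h2

theorem T_Jv (F : Full h NN J A S c) {v : W} (hv : v ∈ S) : F.Tu • J • v = -(J • v) := by
  have h2 := F.T_self hv F.D.J_mem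
  rw [F.cJ, neg_smul, one_smul] at h2
  exact h2

/-- `T ∈ ⁅I, I⁆` if `NN` is commutative and `|S| = 2` -/
theorem Tu_mem_two (F : Full h NN J A S c) (hcm : ∀ n ∈ NN, n ∈ A) {v w : W} (hv : v ∈ S) (hw : w ∈ S) (hvw : v ≠ w)
    (hall : ∀ x ∈ S, x = v ∨ x = w) : F.Tu ∈ ⁅isoms h, isoms h⁆ := by
  have e1 : F.Tu = rf h (J • v) 2 (F.n1' hv) * (F.sw hv hw hvw * rf h (J • v) 2 (F.n1' hv) * (F.sw hv hw hvw)⁻¹) := by
    rw [rf_conj (F.sw_iso hv hw hvw) (J • v) (J • w) 2 (F.n1' hv) (F.sw_Jv hv hw hvw) (F.n1' hw)]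
    have a1 : rf h (J • w) 2 (F.n1' hw) • v = v := by
      rw [rf_smul, F.p2 hw hv (Ne.symm hvw), mul_zero, zero_smul, sub_zero]
    have a2 : rf h (J • v) 2 (F.n1' hv) • v = v := by
      rw [rf_smul, F.o2, mul_zero, zero_smul, sub_zero]
    have a3 : rf h (J • w) 2 (F.n1' hw) • w = w := by
      rw [rf_smul, F.o2, mul_zero, zero_smul, sub_zero]
    have a4 : rf h (J • v) 2 (F.n1' hv) • w = w := by
      rw [rf_smul, F.p2 hv hw hvw, mul_zero, zero_smul, sub_zero]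
    have b1 : rf h (J • w) 2 (F.n1' hw) • J • v = J • v := by
      rw [rf_smul, F.p4 hw hv (Ne.symm hvw), mul_zero, zero_smul, sub_zero]
    have b2 : rf h (J • v) 2 (F.n1' hv) • J • v = -(J • v) := by
      rw [rf_smul, F.o4 hv, mul_one, two_smul]; abel
    have b3 : rf h (J • w) 2 (F.n1' hw) • J • w = -(J • w) := by
      rw [rf_smul, F.o4 hw, mul_one, two_smul]; abel
    have b4 : rf h (J • v) 2 (F.n1' hv) • J • w = J • w := by
      rw [rf_smul, F.p4 hv hw hvw, mul_zero, zero_smul, sub_zero]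
    refine F.ext2 hcm (fun x hx => ?_) fun x hx => ?_
    · rw [mul_smul, F.T_v hx]
      rcases hall x hx with h1 | h1
      · rw [h1, a1, a2]
      · rw [h1, a3, a4]
    · rw [mul_smul, F.T_Jv hx]
      rcases hall x hx with h1 | h1
      · rw [h1, b1, b2]
      · rw [h1, b3, smul_neg, b4]
  rw [e1]
  refine mul_conj_mem (rf_iso F.D.sym _ _ _) (F.sw_iso hv hw hvw) (one_mem _) ?_
  rw [one_mul, inv_one, mul_one, rf_inv]

/-- `T R ∈ ⁅I, I⁆` if `NN` is commutative -/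
theorem TR_mem_two (F : Full h NN J A S c) (hcm : ∀ n ∈ NN, n ∈ A) {v w : W} (X : F.Two v w) :
    F.Tu * F.Ru X ∈ ⁅isoms h, isoms h⁆ := by
  have hv := X.m1
  have hw := X.m2
  have hvw := X.ne
  obtain ⟨g, hg⟩ : ∃ g : (Module.End K W)ˣ, g = rf h v 2 (F.n1 hv) * rf h (v - w) 1 (F.n2 hv hw hvw) := ⟨_, rfl⟩
  have hgi : g ∈ isoms h := by rw [hg]; exact mul_mem (rf_iso F.D.sym _ _ _) (rf_iso F.D.sym _ _ _)
  have g1 : g • v = w := by
    have e1 : rf h (v - w) 1 (F.n2 hv hw hvw) • v = w := by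
      rw [rf_smul, LinearMap.map_sub₂, F.o1 hv, F.p1 hw hv (Ne.symm hvw)]; simp
    rw [hg, mul_smul, e1, rf_smul, F.p1 hv hw hvw, mul_zero, zero_smul, sub_zero]
  have g2 : g • w = -v := by
    have e1 : rf h (v - w) 1 (F.n2 hv hw hvw) • w = v := by
      rw [rf_smul, LinearMap.map_sub₂, F.o1 hw, F.p1 hv hw hvw]; simp
    rw [hg, mul_smul, e1, rf_smul, F.o1 hv, mul_one, two_smul]; abel
  have g3 : g • J • v = J • v := by
    have e1 : rf h (v - w) 1 (F.n2 hv hw hvw) • J • v = J • v := by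
      rw [rf_smul, LinearMap.map_sub₂, F.o3, F.p3 hw hv (Ne.symm hvw)]; simp
    rw [hg, mul_smul, e1, rf_smul, F.o3, mul_zero, zero_smul, sub_zero]
  have g4 : g • J • w = J • w := by
    have e1 : rf h (v - w) 1 (F.n2 hv hw hvw) • J • w = J • w := by
      rw [rf_smul, LinearMap.map_sub₂, F.o3, F.p3 hv hw hvw]; simp
    rw [hg, mul_smul, e1, rf_smul, F.p3 hv hw hvw, mul_zero, zero_smul, sub_zero]
  have k1 : g⁻¹ • v = -w := by rw [inv_smul_eq_iff, smul_neg, g2, neg_neg]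
  have k2 : g⁻¹ • w = v := by rw [inv_smul_eq_iff, g1]
  have k3 : g⁻¹ • J • v = J • v := by rw [inv_smul_eq_iff, g3]
  have k4 : g⁻¹ • J • w = J • w := by rw [inv_smul_eq_iff, g4]
  have r1 : F.Ru X • v = w := by
    have := F.R_one X.m1 X.m2 X.ne X.same (one_mem NN)
    rwa [one_smul, one_smul] at this
  have r2 : F.Ru X • w = -v := by
    have := F.R_two X.m1 X.m2 X.ne X.same (one_mem NN)
    rwa [one_smul, one_smul] at this
  have r3 : F.Ru X • J • v = J • w := F.R_one X.m1 X.m2 X.ne X.same F.D.J_mem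
  have r4 : F.Ru X • J • w = -(J • v) := F.R_two X.m1 X.m2 X.ne X.same F.D.J_mem
  have hJi : ∀ u : W, J⁻¹ • u = -(J • u) := fun u => by rw [inv_smul_eq_iff, smul_neg, F.D.JJ, neg_neg]
  have key : F.Tu * F.Ru X = ⁅g, J⁆ := by
    rw [commutatorElement_def]
    refine F.ext2 hcm (fun x hx => ?_) fun x hx => ?_
    · simp only [mul_smul]
      rcases X.all x hx with rfl | rfl
      · rw [r1, F.T_v hw, hJi, smul_neg, k3, smul_neg, F.D.JJ, neg_neg, g1]
      · rw [r2, smul_neg, F.T_v hv, hJi, smul_neg, k4, smul_neg, F.D.JJ, neg_neg, g2]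
    · simp only [mul_smul]
      rcases X.all x hx with rfl | rfl
      · rw [r3, F.T_Jv hw, hJi, F.D.JJ, neg_neg, k1, smul_neg, smul_neg, g4]
      · rw [r4, smul_neg, F.T_Jv hv, neg_neg, hJi, F.D.JJ, neg_neg, k2, g3]
  rw [key]
  exact commutator_mem_commutator hgi (F.D.iso F.D.J_mem)

end Full

end Cfsg.Agent.H527.C3
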