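import Cfsg.Agent.H527.C3.Glue

/-!
# S1920, classical groups, section 4: the elements lie in the commutator subgroup (helper527)
-/

set_option autoImplicit false

open Subgroup
open scoped commutatorElement

namespace Cfsg.Agent.H527.C3

variable {K W : Type*} [Field K] [AddCommGroup W] [Module K W]

namespace Full

variable {h : LinearMap.BilinForm K W} {NN : Subgroup (Module.End K W)ˣ} [Fintype ↥NN] {J : (Module.End K W)ˣ}
variable {A : Subgroup (Module.End K W)ˣ} {S : Finset W} {c : (Module.End K W)ˣ → K}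

theorem c_one (F : Full h NN J A S c) : c 1 = 1 := F.cA 1 (one_mem _)

theorem one_ne (F : Full h NN J A S c) : (1 : K) ≠ -1 := by
  intro h1
  apply F.D.two
  linear_combination h1

theorem Tu_comm_one (F : Full h NN J A S c) {m : (Module.End K W)ˣ} (hm : m ∈ NN) (hc : c m = 1) :
    F.Tu * m = m * F.Tu := by
  rcases F.Tu_comm hm with ⟨_, h1⟩ | ⟨h1, _⟩
  · exact h1
  · exact absurd (hc.symm.trans h1) F.one_ne

theorem Tu_J (F : Full h NN J A S c) : F.Tu * J = -(J * F.Tu) := by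
  rcases F.Tu_comm F.D.J_mem with ⟨h1, _⟩ | ⟨_, h1⟩
  · exact absurd (h1.symm.trans F.cJ) F.one_ne
  · exact h1

theorem J_inv (F : Full h NN J A S c) : J⁻¹ = -J := by
  rw [inv_eq_iff_mul_eq_one, mul_neg, F.D.J_sq, neg_neg]

theorem Tu_J_conj (F : Full h NN J A S c) : F.Tu * J * F.Tu⁻¹ = J⁻¹ := by
  rw [F.J_inv, mul_inv_eq_iff_eq_mul, F.Tu_J, neg_mul]

theorem T_E (F : Full h NN J A S c) {v : W} (hv : v ∈ S) (u : W) : F.Tu • F.E v u = F.E v (F.Tu • u) := by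
  classical
  have h1 : F.T * F.E v = F.E v * F.T := by
    refine F.ext fun w hw m hm => ?_
    rw [Module.End.mul_apply, Module.End.mul_apply, F.T_self hw hm, LinearMap.map_smul]
    by_cases hvw : v = w
    · subst hvw
      rw [F.E_self hv hm, F.T_self hv hm]
    · rw [F.E_other hv hw hvw hm, map_zero, smul_zero]
  exact congrArg (fun f : Module.End K W => f u) h1

theorem J_E (F : Full h NN J A S c) (v : W) : (J : Module.End K W) * F.E v = F.E v * J :=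
  LinearMap.ext fun u => (F.E_smul v F.D.J_mem u).symm

/-- `J` on the span of `NN v`, `1` elsewhere -/
noncomputable def jv (F : Full h NN J A S c) {v : W} (hv : v ∈ S) : (Module.End K W)ˣ :=
  glue (F.E v) (F.E_idem hv) J (F.J_E v)

theorem jv_iso (F : Full h NN J A S c) {v : W} (hv : v ∈ S) : F.jv hv ∈ isoms h :=
  glue_iso (F.E_idem hv) (F.E_adj v) (F.D.iso F.D.J_mem) (F.J_E v)

theorem jv_comm (F : Full h NN J A S c) {v : W} (hv : v ∈ S) {m : (Module.End K W)ˣ} (hm : m ∈ NN) :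
    m * F.jv hv = F.jv hv * m :=
  glue_comm _ _ _ _ (fun u => (F.E_smul v hm u).symm) (F.D.cen m hm)

theorem E_v (F : Full h NN J A S c) {v : W} (hv : v ∈ S) : F.E v v = v := by
  have h1 := F.E_self hv (one_mem NN)
  rwa [one_smul] at h1

theorem E_w (F : Full h NN J A S c) {v w : W} (hv : v ∈ S) (hw : w ∈ S) (hvw : v ≠ w) : F.E v w = 0 := by
  have h1 := F.E_other hv hw hvw (one_mem NN)
  rwa [one_smul] at h1

theorem jv_self (F : Full h NN J A S c) {v : W} (hv : v ∈ S) : F.jv hv • v = J • v :=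
  glue_img _ _ _ _ (F.E_v hv)

theorem jv_Jself (F : Full h NN J A S c) {v : W} (hv : v ∈ S) : F.jv hv • J • v = -v :=
  (glue_img _ _ _ _ (F.E_self hv F.D.J_mem)).trans (F.D.JJ v)

theorem jv_other (F : Full h NN J A S c) {v w : W} (hv : v ∈ S) (hw : w ∈ S) (hvw : v ≠ w) : F.jv hv • w = w :=
  glue_ker _ _ _ _ (F.E_w hv hw hvw)

theorem jv_Jother (F : Full h NN J A S c) {v w : W} (hv : v ∈ S) (hw : w ∈ S) (hvw : v ≠ w) :
    F.jv hv • J • w = J • w :=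
  glue_ker _ _ _ _ (F.E_other hv hw hvw F.D.J_mem)

theorem jv_conj (F : Full h NN J A S c) {v : W} (hv : v ∈ S) : F.Tu * F.jv hv * F.Tu⁻¹ = (F.jv hv)⁻¹ :=
  glue_conj_inv _ _ _ _ (F.T_E hv) F.Tu_J_conj

theorem jv_sq_mem (F : Full h NN J A S c) {v : W} (hv : v ∈ S) : F.jv hv * F.jv hv ∈ ⁅isoms h, isoms h⁆ :=
  sq_mem (F.jv_iso hv) F.Tu_iso (F.jv_conj hv)

theorem jv_jv (F : Full h NN J A S c) {v w : W} (hv : v ∈ S) (hw : w ∈ S) : F.jv hv * F.jv hw = F.jv hw * F.jv hv := by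
  classical
  by_cases hvw : v = w
  · subst hvw; rfl
  refine glue_comm _ _ _ _ (fun u => ?_) (F.jv_comm hv F.D.J_mem).symm
  have h1 : F.E v * F.E w = F.E w * F.E v := by rw [F.E_orth hv hw hvw, F.E_orth hw hv (Ne.symm hvw)]
  have h2 : ∀ x : W, F.E v (F.E w x) = F.E w (F.E v x) := fun x => congrArg (fun f : Module.End K W => f x) h1
  rw [jv, glue_smul, glue_smul, map_add, map_sub, F.E_smul w F.D.J_mem, h2]

/-- an involution `a` of `A`, anticommuting with some `n` -/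
theorem exists_anti (F : Full h NN J A S c) (hnc : ∃ n ∈ NN, n ∉ A) :
    ∃ n ∈ NN, ∃ a ∈ Dat.inv1 F.M, a * n = -(n * a) ∧ c n = 1 := by
  obtain ⟨n, hn, hnA⟩ := hnc
  obtain ⟨a, ha, ha1, han⟩ := F.D.anti F.M hn hnA
  rcases F.sg.val n hn with h1 | h1
  · exact ⟨n, hn, a, ⟨ha, ha1⟩, han, h1⟩
  · refine ⟨J * n, mul_mem F.D.J_mem hn, a, ⟨ha, ha1⟩, ?_, ?_⟩
    · rw [← mul_assoc, F.M.comm a ha J F.M.J_mem, mul_assoc, han, mul_neg, mul_assoc]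
    · rw [F.sg.mul J F.D.J_mem n hn, F.cJ, h1]; ring

theorem jv_mem (F : Full h NN J A S c) (hnc : ∃ n ∈ NN, n ∉ A) {v : W} (hv : v ∈ S) :
    F.jv hv ∈ ⁅isoms h, isoms h⁆ := by
  obtain ⟨n, hn, a, ha, han, -⟩ := F.exists_anti hnc
  exact split_mem F.D.two (F.D.iso (F.M.le ha.1)) (F.D.iso hn) (F.jv_iso hv) F.Tu_iso ha.2 han
    (F.jv_comm hv (F.M.le ha.1)).symm (F.jv_comm hv hn).symm (F.Tu_comm_one (F.M.le ha.1) (F.cA a ha)) (F.jv_conj hv)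

theorem Tu_inv (F : Full h NN J A S c) : F.Tu⁻¹ = F.Tu := by
  rw [inv_eq_iff_mul_eq_one, F.Tu_sq]

theorem Tu_mem (F : Full h NN J A S c) (hnc : ∃ n ∈ NN, n ∉ A) : F.Tu ∈ ⁅isoms h, isoms h⁆ := by
  obtain ⟨n, hn, a, ha, han, hcn⟩ := F.exists_anti hnc
  refine split_mem F.D.two (F.D.iso (F.M.le ha.1)) (F.D.iso hn) F.Tu_iso (one_mem _) ha.2 han
    (F.Tu_comm_one (F.M.le ha.1) (F.cA a ha)) (F.Tu_comm_one hn hcn) ?_ ?_
  · rw [one_mul, mul_one]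
  · rw [one_mul, inv_one, mul_one, F.Tu_inv]

/-! ### the rotation -/

theorem Tu_Ru (F : Full h NN J A S c) {v₁ v₂ : W} (X : F.Two v₁ v₂) : F.Tu * F.Ru X = F.Ru X * F.Tu := by
  refine Units.ext (F.ext fun w hw m hm => ?_)
  change F.T (F.R v₁ v₂ (m • w)) = F.R v₁ v₂ (F.T (m • w))
  rw [F.T_self hw hm, LinearMap.map_smul]
  rcases X.all w hw with rfl | rfl
  · rw [F.R_one X.m1 X.m2 X.ne X.same hm, F.T_self X.m2 hm]
  · rw [F.R_two X.m1 X.m2 X.ne X.same hm, map_neg, F.T_self X.m1 hm, smul_neg]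

theorem Ru_sq (F : Full h NN J A S c) {v₁ v₂ : W} (X : F.Two v₁ v₂) : F.Ru X * F.Ru X = -1 := by
  refine Units.ext ?_
  change F.R v₁ v₂ * F.R v₁ v₂ = -1
  exact F.R_sq X

theorem TR_sq (F : Full h NN J A S c) {v₁ v₂ : W} (X : F.Two v₁ v₂) :
    F.Tu * F.Ru X * (F.Tu * F.Ru X) = -1 := by
  calc F.Tu * F.Ru X * (F.Tu * F.Ru X) = F.Tu * (F.Ru X * F.Tu) * F.Ru X := by group
    _ = F.Tu * (F.Tu * F.Ru X) * F.Ru X := by rw [F.Tu_Ru X]
    _ = (F.Tu * F.Tu) * (F.Ru X * F.Ru X) := by group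
    _ = -1 := by rw [F.Tu_sq, F.Ru_sq X, one_mul]

theorem TR_J (F : Full h NN J A S c) {v₁ v₂ : W} (X : F.Two v₁ v₂) :
    F.Tu * F.Ru X * J = -(J * (F.Tu * F.Ru X)) := by
  rw [mul_assoc, F.Ru_comm X F.D.J_mem, ← mul_assoc, F.Tu_J, neg_mul, mul_assoc]

theorem TR_comm (F : Full h NN J A S c) {v₁ v₂ : W} (X : F.Two v₁ v₂) {m : (Module.End K W)ˣ} (hm : m ∈ NN) :
    (c m = 1 ∧ F.Tu * F.Ru X * m = m * (F.Tu * F.Ru X)) ∨ (c m = -1 ∧ F.Tu * F.Ru X * m = -(m * (F.Tu * F.Ru X))) := by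
  rcases F.Tu_comm hm with ⟨h0, h1⟩ | ⟨h0, h1⟩
  · left
    exact ⟨h0, by rw [mul_assoc, F.Ru_comm X hm, ← mul_assoc, h1, mul_assoc]⟩
  · right
    exact ⟨h0, by rw [mul_assoc, F.Ru_comm X hm, ← mul_assoc, h1, neg_mul, mul_assoc]⟩

theorem TR_comm_one (F : Full h NN J A S c) {v₁ v₂ : W} (X : F.Two v₁ v₂) {m : (Module.End K W)ˣ} (hm : m ∈ NN)
    (hc : c m = 1) : F.Tu * F.Ru X * m = m * (F.Tu * F.Ru X) := by
  rcases F.TR_comm X hm with ⟨_, h1⟩ | ⟨h1, _⟩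
  · exact h1
  · exact absurd (hc.symm.trans h1) F.one_ne

theorem TR_mem (F : Full h NN J A S c) (hnc : ∃ n ∈ NN, n ∉ A) {v₁ v₂ : W} (X : F.Two v₁ v₂) :
    F.Tu * F.Ru X ∈ ⁅isoms h, isoms h⁆ := by
  obtain ⟨n, hn, a, ha, han, hcn⟩ := F.exists_anti hnc
  refine split_mem F.D.two (F.D.iso (F.M.le ha.1)) (F.D.iso hn) (mul_mem F.Tu_iso (F.Ru_iso X)) (F.D.iso F.D.J_mem)
    ha.2 han (F.TR_comm_one X (F.M.le ha.1) (F.cA a ha)) (F.TR_comm_one X hn hcn) ?_ ?_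
  · exact (F.M.comm J F.M.J_mem a ha.1)
  · have h1 : (F.Tu * F.Ru X)⁻¹ = -(F.Tu * F.Ru X) := by
      rw [inv_eq_iff_mul_eq_one, mul_neg, F.TR_sq X, neg_neg]
    rw [h1, mul_inv_eq_iff_eq_mul, neg_mul, F.TR_J X, neg_neg]

/-- the twisted rotation commutes with perfect subgroups of the centralizer -/
theorem perfect_comm (F : Full h NN J A S c) {v₁ v₂ : W} (X : F.Two v₁ v₂) {EE : Subgroup (Module.End K W)ˣ}
    (hp : ⁅EE, EE⁆ = EE) (hE : EE ≤ cen h NN) : ∀ g ∈ EE, g * (F.Tu * F.Ru X) = F.Tu * F.Ru X * g := by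
  have key : ∀ g ∈ EE, ∃ x y : K, ∀ u : W, g • F.T (F.R v₁ v₂ u) =
      x • F.T (F.R v₁ v₂ (g • u)) + y • J • F.T (F.R v₁ v₂ (g • u)) := fun g hg => F.twist X (hE hg)
  have hgJ : ∀ g ∈ EE, ∀ u : W, g • J • u = J • g • u := fun g hg u => by
    rw [← mul_smul, ← (mem_cen.1 (hE hg)).2 J F.D.J_mem, mul_smul]
  have hJc : ∀ (g : (Module.End K W)ˣ) (k : K) (u : W), g • k • u = k • g • u := fun g k u => smul_comm g k u
  have h1 : ∀ g ∈ EE, ∀ g' ∈ EE, ∀ u : W, (g' * g) • F.T (F.R v₁ v₂ ((g' * g)⁻¹ • u)) =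
      (g * g') • F.T (F.R v₁ v₂ ((g * g')⁻¹ • u)) := by
    intro g hg g' hg' u
    obtain ⟨x, y, hxy⟩ := key g hg
    obtain ⟨x', y', hxy'⟩ := key g' hg'
    have e1 : ∀ w : W, (g' * g) • F.T (F.R v₁ v₂ w) =
        x • (x' • F.T (F.R v₁ v₂ ((g' * g) • w)) + y' • J • F.T (F.R v₁ v₂ ((g' * g) • w))) +
        y • J • (x' • F.T (F.R v₁ v₂ ((g' * g) • w)) + y' • J • F.T (F.R v₁ v₂ ((g' * g) • w))) := by
      intro w
      rw [mul_smul, hxy, smul_add, hJc g', hJc g', hgJ g' hg', hxy', mul_smul]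
    have e2 : ∀ w : W, (g * g') • F.T (F.R v₁ v₂ w) =
        x' • (x • F.T (F.R v₁ v₂ ((g * g') • w)) + y • J • F.T (F.R v₁ v₂ ((g * g') • w))) +
        y' • J • (x • F.T (F.R v₁ v₂ ((g * g') • w)) + y • J • F.T (F.R v₁ v₂ ((g * g') • w))) := by
      intro w
      rw [mul_smul, hxy', smul_add, hJc g, hJc g, hgJ g hg, hxy, mul_smul]
    rw [e1, e2, smul_inv_smul, smul_inv_smul]
    generalize F.T (F.R v₁ v₂ u) = z
    simp only [smul_add, smul_smul, hJc]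
    rw [mul_comm x x', mul_comm x y', mul_comm y x', mul_comm y y']
    abel
  have h2 : ∀ g ∈ EE, ∀ g' ∈ EE, ⁅g', g⁆ * (F.Tu * F.Ru X) = F.Tu * F.Ru X * ⁅g', g⁆ := by
    intro g hg g' hg'
    have h3 : (g'⁻¹ * g⁻¹) * (F.Tu * F.Ru X) * (g'⁻¹ * g⁻¹)⁻¹ = (g⁻¹ * g'⁻¹) * (F.Tu * F.Ru X) * (g⁻¹ * g'⁻¹)⁻¹ :=
      Units.ext (LinearMap.ext fun u => h1 g⁻¹ (inv_mem hg) g'⁻¹ (inv_mem hg') u)
    rw [commutatorElement_def]
    calc g' * g * g'⁻¹ * g⁻¹ * (F.Tu * F.Ru X)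
        = g' * g * ((g'⁻¹ * g⁻¹) * (F.Tu * F.Ru X) * (g'⁻¹ * g⁻¹)⁻¹) * (g'⁻¹ * g⁻¹) := by group
      _ = g' * g * ((g⁻¹ * g'⁻¹) * (F.Tu * F.Ru X) * (g⁻¹ * g'⁻¹)⁻¹) * (g'⁻¹ * g⁻¹) := by rw [h3]
      _ = F.Tu * F.Ru X * (g' * g * g'⁻¹ * g⁻¹) := by group
  have h4 : ⁅EE, EE⁆ ≤ centralizer ({F.Tu * F.Ru X} : Set (Module.End K W)ˣ) := by
    rw [commutator_le]
    intro a ha b hb
    rw [mem_centralizer_singleton_iff]
    exact h2 b hb a ha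
  intro g hg
  rw [← hp] at hg
  exact mem_centralizer_singleton_iff.1 (h4 hg)

end Full

end Cfsg.Agent.H527.C3
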