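import Cfsg.Agent.H527.C3.Twist

/-!
# S1920, classical groups, section 4: glued isometries and commutators (helper527)

`glue e g` : `g` on the image of the idempotent `e`, `1` on its kernel.
`rf x k` : the reflection `u ↦ u - k h(x, u) x`, `k h(x, x) = 2`.
`mul_conj_mem` : `g (n g n⁻¹) ∈ ⁅I, I⁆` if `g` is conjugate to `g⁻¹` in `I`.
`split_mem` : `g ∈ ⁅I, I⁆` for `g` commuting with `a`, `n`, where `a n = - n a`, `a² = 1`.
-/

set_option autoImplicit false

open Subgroup
open scoped commutatorElement

namespace Cfsg.Agent.H527.C3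

theorem mul_conj_mem {G : Type*} [Group G] {I : Subgroup G} {g n y : G} (hg : g ∈ I) (hn : n ∈ I) (hy : y ∈ I)
    (h : y * g * y⁻¹ = g⁻¹) : g * (n * g * n⁻¹) ∈ ⁅I, I⁆ := by
  have h1 : ⁅g, y⁆ = g * g := by
    rw [commutatorElement_def]
    calc g * y * g⁻¹ * y⁻¹ = g * (y * g * y⁻¹)⁻¹ := by group
      _ = g * g := by rw [h, inv_inv]
  have h2 : g * (n * g * n⁻¹) = ⁅g, y⁆ * ⁅g⁻¹, n⁆ := by
    rw [h1, commutatorElement_def]; group
  rw [h2]
  exact mul_mem (commutator_mem_commutator hg hy) (commutator_mem_commutator (inv_mem hg) hn)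

theorem sq_mem {G : Type*} [Group G] {I : Subgroup G} {g y : G} (hg : g ∈ I) (hy : y ∈ I)
    (h : y * g * y⁻¹ = g⁻¹) : g * g ∈ ⁅I, I⁆ := by
  have h1 := mul_conj_mem hg (one_mem I) hy h
  rwa [one_mul, inv_one, mul_one] at h1

variable {K W : Type*} [Field K] [AddCommGroup W] [Module K W]

/-- `g` on the image of `e`, `1` on the kernel -/
def glue (e : Module.End K W) (he : e * e = e) (g : (Module.End K W)ˣ) (hc : (g : Module.End K W) * e = e * g) :
    (Module.End K W)ˣ :=
  have hc' : ((g⁻¹ : (Module.End K W)ˣ) : Module.End K W) * e = e * ((g⁻¹ : (Module.End K W)ˣ) : Module.End K W) := by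
    rw [Units.inv_mul_eq_iff_eq_mul, ← mul_assoc, hc, mul_assoc, Units.mul_inv, mul_one]
  ⟨g * e + (1 - e), ((g⁻¹ : (Module.End K W)ˣ) : Module.End K W) * e + (1 - e), by
    have h1 : (g : Module.End K W) * e * (((g⁻¹ : (Module.End K W)ˣ) : Module.End K W) * e) = e := by
      rw [hc', mul_assoc, ← mul_assoc e e, he, ← hc', Units.mul_inv_cancel_left]
    have h2 : e * (1 - e) = 0 := by rw [mul_sub, mul_one, he, sub_self]
    have h3 : (1 - e) * (((g⁻¹ : (Module.End K W)ˣ) : Module.End K W) * e) = 0 := by
      rw [hc', ← mul_assoc, sub_mul, one_mul, he, sub_self, zero_mul]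
    have h4 : (1 - e) * (1 - e) = 1 - e := by rw [mul_sub, mul_one, sub_mul, one_mul, he, sub_self, sub_zero]
    rw [add_mul, mul_add, mul_add, h1, mul_assoc, h2, mul_zero, h3, h4]
    abel, by
    have h1 : ((g⁻¹ : (Module.End K W)ˣ) : Module.End K W) * e * ((g : Module.End K W) * e) = e := by
      rw [hc, mul_assoc, ← mul_assoc e e, he, ← hc, Units.inv_mul_cancel_left]
    have h2 : e * (1 - e) = 0 := by rw [mul_sub, mul_one, he, sub_self]
    have h3 : (1 - e) * ((g : Module.End K W) * e) = 0 := by
      rw [hc, ← mul_assoc, sub_mul, one_mul, he, sub_self, zero_mul]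
    have h4 : (1 - e) * (1 - e) = 1 - e := by rw [mul_sub, mul_one, sub_mul, one_mul, he, sub_self, sub_zero]
    rw [add_mul, mul_add, mul_add, h1, mul_assoc, h2, mul_zero, h3, h4]
    abel⟩

theorem glue_smul (e : Module.End K W) (he : e * e = e) (g : (Module.End K W)ˣ)
    (hc : (g : Module.End K W) * e = e * g) (u : W) : glue e he g hc • u = g • e u + (u - e u) := rfl

theorem glue_img (e : Module.End K W) (he : e * e = e) (g : (Module.End K W)ˣ)
    (hc : (g : Module.End K W) * e = e * g) {u : W} (hu : e u = u) : glue e he g hc • u = g • u := by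
  rw [glue_smul, hu, sub_self, add_zero]

theorem glue_ker (e : Module.End K W) (he : e * e = e) (g : (Module.End K W)ˣ)
    (hc : (g : Module.End K W) * e = e * g) {u : W} (hu : e u = 0) : glue e he g hc • u = u := by
  rw [glue_smul, hu, smul_zero, sub_zero, zero_add]

theorem glue_iso {h : LinearMap.BilinForm K W} {e : Module.End K W} (he : e * e = e)
    (hadj : ∀ u v, h (e u) v = h u (e v)) {g : (Module.End K W)ˣ} (hg : g ∈ isoms h)
    (hc : (g : Module.End K W) * e = e * g) : glue e he g hc ∈ isoms h := by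
  intro u v
  have hee : ∀ u, e (e u) = e u := fun u => congrArg (fun f : Module.End K W => f u) he
  have hge : ∀ u, g • e u = e (g • u) := fun u => congrArg (fun f : Module.End K W => f u) hc
  have h1 : h (g • e u) (v - e v) = 0 := by
    rw [hge, hadj, map_sub, hee, sub_self, map_zero]
  have h2 : h (u - e u) (g • e v) = 0 := by
    rw [hge, ← hadj, map_sub, hee, sub_self, map_zero, LinearMap.zero_apply]
  have h3 : h (e u) (v - e v) = 0 := by rw [hadj, map_sub, hee, sub_self, map_zero]
  have h4 : h (u - e u) (e v) = 0 := by rw [← hadj, map_sub, hee, sub_self, map_zero, LinearMap.zero_apply]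
  have h5 : h u v = h (e u) (e v) + h (u - e u) (v - e v) := by
    calc h u v = h (e u + (u - e u)) (e v + (v - e v)) := by rw [add_sub_cancel, add_sub_cancel]
      _ = h (e u) (e v) + h (e u) (v - e v) + (h (u - e u) (e v) + h (u - e u) (v - e v)) := by
        rw [LinearMap.map_add₂, map_add, map_add]
      _ = _ := by rw [h3, h4, add_zero, zero_add]
  rw [glue_smul, glue_smul, LinearMap.map_add₂, map_add, map_add, h1, h2, add_zero, zero_add, hg, h5]

/-- `glue` commutes with what commutes with `e` and `g` -/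
theorem glue_comm (e : Module.End K W) (he : e * e = e) (g : (Module.End K W)ˣ)
    (hc : (g : Module.End K W) * e = e * g) {m : (Module.End K W)ˣ} (hme : ∀ u, m • e u = e (m • u))
    (hmg : m * g = g * m) : m * glue e he g hc = glue e he g hc * m := by
  refine Units.ext (LinearMap.ext fun u => ?_)
  change m • glue e he g hc • u = glue e he g hc • m • u
  rw [glue_smul, glue_smul, smul_add, smul_sub, hme, ← mul_smul, hmg, mul_smul, hme]

/-- conjugation of `glue` to its inverse -/
theorem glue_conj_inv (e : Module.End K W) (he : e * e = e) (g : (Module.End K W)ˣ)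
    (hc : (g : Module.End K W) * e = e * g) {y : (Module.End K W)ˣ} (hye : ∀ u, y • e u = e (y • u))
    (hyg : y * g * y⁻¹ = g⁻¹) : y * glue e he g hc * y⁻¹ = (glue e he g hc)⁻¹ := by
  rw [eq_comm, inv_eq_iff_mul_eq_one, ← mul_assoc, ← mul_assoc, mul_inv_eq_one]
  refine Units.ext (LinearMap.ext fun u => ?_)
  change glue e he g hc • y • glue e he g hc • u = y • u
  have hee : ∀ u, e (e u) = e u := fun u => congrArg (fun f : Module.End K W => f u) he
  have hge : ∀ u, e (g • u) = g • e u := fun u => (congrArg (fun f : Module.End K W => f u) hc).symm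
  have h1 : e (y • glue e he g hc • u) = y • g • e u := by
    rw [← hye, glue_smul, map_add, map_sub, hee, sub_self, add_zero, hge, hee]
  have h2 : g • y • g • e u = y • e u := by
    rw [← mul_smul, ← mul_smul]
    have h3 : g * (y * g) = y := by
      have h4 : y * g = g⁻¹ * y := by rw [← hyg]; group
      rw [h4, mul_inv_cancel_left]
    rw [mul_assoc] 
    rw [h3]
  rw [glue_smul e he g hc (y • glue e he g hc • u), h1, h2, glue_smul, smul_add, smul_sub]
  abel

/-- `g = g_a (n g_a n⁻¹)` -/
theorem split_mem {h : LinearMap.BilinForm K W} (h2 : (2 : K) ≠ 0) {a n g y : (Module.End K W)ˣ}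
    (ha : a ∈ isoms h) (hn : n ∈ isoms h) (hg : g ∈ isoms h) (hy : y ∈ isoms h) (ha1 : a * a = 1)
    (han : a * n = -(n * a)) (hga : g * a = a * g) (hgn : g * n = n * g) (hya : y * a = a * y)
    (hyg : y * g * y⁻¹ = g⁻¹) : g ∈ ⁅isoms h, isoms h⁆ := by
  -- the idempotent
  have hin : (2 : K)⁻¹ + (2 : K)⁻¹ = 1 := by
    rw [← two_mul, mul_inv_cancel₀ h2]
  obtain ⟨e, he_def⟩ : ∃ e : Module.End K W, e = (2 : K)⁻¹ • (1 + (a : Module.End K W)) := ⟨_, rfl⟩
  have hea : ∀ u, e u = (2 : K)⁻¹ • (u + a • u) := fun u => by rw [he_def]; rfl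
  have haa : ∀ u : W, a • a • u = u := fun u => by rw [← mul_smul, ha1, one_smul]
  have hsm : ∀ (k : K) (x : (Module.End K W)ˣ) (u : W), x • k • u = k • x • u := fun k x u => smul_comm x k u
  have hhalf : ∀ u : W, (2 : K)⁻¹ • (u + u) = u := fun u => by
    rw [smul_add, ← add_smul, hin, one_smul]
  have hae : ∀ u, a • e u = e u := fun u => by
    rw [hea, hsm, smul_add, haa, add_comm]
  have hee : ∀ u, e (e u) = e u := fun u => by
    rw [hea (e u), hae, hhalf]
  have he : e * e = e := LinearMap.ext hee
  have haadj : ∀ u v, h (a • u) v = h u (a • v) := fun u v => by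
    rw [← ha u (a • v), haa]
  have hadj : ∀ u v, h (e u) v = h u (e v) := fun u v => by
    rw [hea, hea, LinearMap.map_smul, LinearMap.smul_apply, LinearMap.map_smul, map_add, LinearMap.add_apply,
      map_add, haadj]
  have hxe : ∀ x : (Module.End K W)ˣ, x * a = a * x → ∀ u, x • e u = e (x • u) := fun x hx u => by
    rw [hea, hea, hsm, smul_add, ← mul_smul, hx, mul_smul]
  have hce : (g : Module.End K W) * e = e * g := LinearMap.ext (hxe g hga)
  have hne : ∀ u, e (n • u) = n • u - n • e u := fun u => by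
    have h1 : a • n • u = -(n • a • u) := by rw [← mul_smul, han, Units.neg_smul, mul_smul]
    rw [hea, hea, h1, hsm, smul_add, smul_add, smul_add]
    have h3 : n • u = (2 : K)⁻¹ • n • u + (2 : K)⁻¹ • n • u := by rw [← smul_add, hhalf]
    nth_rewrite 2 [h3]
    rw [smul_neg]
    abel
  have key : g = glue e he g hce * (n * glue e he g hce * n⁻¹) := by
    rw [← mul_assoc, ← mul_assoc, eq_mul_inv_iff_mul_eq]
    refine Units.ext (LinearMap.ext fun u => ?_)
    change g • n • u = glue e he g hce • n • glue e he g hce • u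
    have hgn' : ∀ u : W, g • n • u = n • g • u := fun u => by rw [← mul_smul, hgn, mul_smul]
    have h1 : e (n • glue e he g hce • u) = n • (u - e u) := by
      rw [hne, glue_smul, map_add, map_sub, hee, sub_self, add_zero, ← hxe g hga, hee, ← smul_sub]
      congr 1
      abel
    rw [glue_smul e he g hce (n • glue e he g hce • u), h1, glue_smul, hgn', hgn', ← smul_sub, ← smul_add]
    congr 1
    rw [smul_sub]
    abel
  rw [key]
  exact mul_conj_mem (glue_iso he hadj hg hce) hn hy (glue_conj_inv e he g hce (hxe y hya) hyg)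

/-- the reflection `u ↦ u - k h(x, u) x` -/
def rf (h : LinearMap.BilinForm K W) (x : W) (k : K) (hk : k * h x x = 2) : (Module.End K W)ˣ :=
  have hs : (1 - k • rk h x x) * (1 - k • rk h x x) = 1 := by
    refine LinearMap.ext fun u => ?_
    rw [Module.End.mul_apply, Module.End.one_apply, LinearMap.sub_apply, Module.End.one_apply, LinearMap.smul_apply,
      rk_apply, LinearMap.sub_apply, Module.End.one_apply, LinearMap.smul_apply, rk_apply, map_sub,
      LinearMap.map_smul, LinearMap.map_smul, smul_smul, smul_smul, sub_sub, ← add_smul]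
    have h1 : k * h x u + k * (h x u - k • h x u • h x x) = 0 := by
      rw [smul_eq_mul, smul_eq_mul]
      linear_combination (-k * h x u) * hk
    rw [h1, zero_smul, sub_zero]
  ⟨1 - k • rk h x x, 1 - k • rk h x x, hs, hs⟩

theorem rf_smul (h : LinearMap.BilinForm K W) (x : W) (k : K) (hk : k * h x x = 2) (u : W) :
    rf h x k hk • u = u - (k * h x u) • x := by
  change (1 - k • rk h x x) u = _
  rw [LinearMap.sub_apply, Module.End.one_apply, LinearMap.smul_apply, rk_apply, smul_smul]

theorem rf_inv (h : LinearMap.BilinForm K W) (x : W) (k : K) (hk : k * h x x = 2) :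
    (rf h x k hk)⁻¹ = rf h x k hk := Units.ext rfl

theorem rf_iso {h : LinearMap.BilinForm K W} (hs : ∀ u v, h u v = h v u) (x : W) (k : K) (hk : k * h x x = 2) :
    rf h x k hk ∈ isoms h := by
  intro u v
  have h1 : h (u - (k * h x u) • x) (v - (k * h x v) • x) =
      h u v - (k * h x v) * h u x - ((k * h x u) * h x v - (k * h x u) * ((k * h x v) * h x x)) := by
    rw [LinearMap.map_sub₂, map_sub, map_sub, LinearMap.map_smul₂, LinearMap.map_smul₂, LinearMap.map_smul,
      LinearMap.map_smul]
    rfl
  rw [rf_smul, rf_smul, h1, hs u x]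
  linear_combination (k * h x u * h x v) * hk

theorem rf_conj {h : LinearMap.BilinForm K W} {g : (Module.End K W)ˣ} (hg : g ∈ isoms h) (x x' : W) (k : K)
    (hk : k * h x x = 2) (hx : g • x = x') (hk' : k * h x' x' = 2) :
    g * rf h x k hk * g⁻¹ = rf h x' k hk' := by
  subst hx
  rw [mul_inv_eq_iff_eq_mul]
  refine Units.ext (LinearMap.ext fun u => ?_)
  change g • rf h x k hk • u = rf h (g • x) k hk' • g • u
  rw [rf_smul, rf_smul, hg, smul_sub, smul_comm g]

end Cfsg.Agent.H527.C3
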