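import Cfsg.Agent.H527.C3.Ab

/-!
# S1920, classical groups, section 4: the structure lemma (helper527)

`structure_sym` : `h` symmetric non-degenerate, `NN` a finite group of isometries with squares and commutators `± 1`,
`J ∈ NN` central, `J² = -1`, `EE` a perfect group of isometries commuting with `NN`.  Then either there are three
planes (`Three`) or an isometry `t` with `t J = - J t`, `t n = ± n t`, commuting with `EE`.
-/

set_option autoImplicit false

open Subgroup
open scoped commutatorElement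

namespace Cfsg.Agent.H527.C3

variable {K W : Type*} [Field K] [AddCommGroup W] [Module K W]

/-- three planes -/
structure Three (h : LinearMap.BilinForm K W) (NN : Subgroup (Module.End K W)ˣ) (J : (Module.End K W)ˣ)
    (v : Fin 3 → W) (j : Fin 3 → (Module.End K W)ˣ) : Prop where
  iso : ∀ k, j k ∈ isoms h
  nn : ∀ k, ∀ n ∈ NN, n * j k = j k * n
  comm : ∀ k i, j k * j i = j i * j k
  norm : ∀ k, h (v k) (v k) = 1
  self : ∀ k, j k • v k = J • v k
  selfJ : ∀ k, j k • J • v k = -v k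
  other : ∀ k i, k ≠ i → j k • v i = v i
  otherJ : ∀ k i, k ≠ i → j k • J • v i = J • v i
  four : ∀ k, j k ^ 4 = 1
  mem2 : ∀ k i, j k * j i ∈ ⁅isoms h, isoms h⁆
  mem1 : (∃ n ∈ NN, ∃ m ∈ NN, n * m ≠ m * n) → ∀ k, j k ∈ ⁅isoms h, isoms h⁆

/-- the twisting isometry -/
structure Tw (h : LinearMap.BilinForm K W) (NN EE : Subgroup (Module.End K W)ˣ) (J t : (Module.End K W)ˣ) : Prop where
  iso : t ∈ isoms h
  antiJ : t * J = -(J * t)
  nn : ∀ n ∈ NN, t * n = n * t ∨ t * n = -(n * t)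
  ee : ∀ g ∈ EE, g * t = t * g
  mem : t ∈ ⁅isoms h, isoms h⁆ ∨
    ((∀ n ∈ NN, ∀ m ∈ NN, n * m = m * n) ∧ EE = ⊥ ∧ ∃ v : W, h v v = 1 ∧ ∀ u : W, ∃ x y : K, u = x • v + y • J • v)

namespace Full

variable {h : LinearMap.BilinForm K W} {NN : Subgroup (Module.End K W)ˣ} [Fintype ↥NN] {J : (Module.End K W)ˣ}
variable {A : Subgroup (Module.End K W)ˣ} {S : Finset W} {c : (Module.End K W)ˣ → K}

theorem jv_four (F : Full h NN J A S c) {v : W} (hv : v ∈ S) : F.jv hv ^ 4 = 1 := by
  classical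
  refine Units.ext (F.ext fun w hw m hm => ?_)
  change (F.jv hv ^ 4) • m • w = (1 : (Module.End K W)ˣ) • m • w
  have h1 : ∀ u : W, F.jv hv • m • u = m • F.jv hv • u := fun u => by
    rw [← mul_smul, ← F.jv_comm hv hm, mul_smul]
  have h2 : F.jv hv ^ 4 = F.jv hv * (F.jv hv * (F.jv hv * F.jv hv)) := by
    simp only [pow_succ, pow_zero, one_mul, mul_assoc]
  rw [h2, one_smul, mul_smul, mul_smul, mul_smul, h1, h1, h1, h1]
  congr 1
  by_cases hvw : v = w
  · subst hvw
    rw [F.jv_self, F.jv_Jself, smul_neg, F.jv_self, smul_neg, F.jv_Jself, neg_neg]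
  · rw [F.jv_other hv hw hvw, F.jv_other hv hw hvw, F.jv_other hv hw hvw, F.jv_other hv hw hvw]

/-- `A` is proper if `NN` is not commutative -/
theorem not_le (F : Full h NN J A S c) (hnc : ∃ n ∈ NN, ∃ m ∈ NN, n * m ≠ m * n) : ∃ n ∈ NN, n ∉ A := by
  by_contra hcon
  push Not at hcon
  obtain ⟨n, hn, m, hm, hnm⟩ := hnc
  exact hnm (F.M.comm n (hcon n hn) m (hcon m hm))

/-- three planes -/
theorem three (F : Full h NN J A S c) (hS : 2 < S.card) :
    ∃ (v : Fin 3 → W) (j : Fin 3 → (Module.End K W)ˣ), Three h NN J v j := by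
  obtain ⟨a, ha, b, hb, d, hd, hab, had, hbd⟩ := Finset.two_lt_card.1 hS
  have hv : ∀ k : Fin 3, (![a, b, d] : Fin 3 → W) k ∈ S := by
    intro k
    fin_cases k
    · exact ha
    · exact hb
    · exact hd
  have hne : ∀ k i : Fin 3, k ≠ i → (![a, b, d] : Fin 3 → W) k ≠ (![a, b, d] : Fin 3 → W) i := by
    intro k i hki
    fin_cases k <;> fin_cases i
    · exact absurd rfl hki
    · exact hab
    · exact had
    · exact Ne.symm hab
    · exact absurd rfl hki
    · exact hbd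
    · exact Ne.symm had
    · exact Ne.symm hbd
    · exact absurd rfl hki
  refine ⟨![a, b, d], fun k => F.jv (hv k), ?_⟩
  exact ⟨fun k => F.jv_iso (hv k), fun k n hn => F.jv_comm (hv k) hn, fun k i => F.jv_jv (hv k) (hv i),
    fun k => F.o1 (hv k), fun k => F.jv_self (hv k), fun k => F.jv_Jself (hv k),
    fun k i hki => F.jv_other (hv k) (hv i) (hne k i hki), fun k i hki => F.jv_Jother (hv k) (hv i) (hne k i hki),
    fun k => F.jv_four (hv k), fun k i => F.jv_jv_mem (hv k) (hv i), fun hnc k => F.jv_mem (F.not_le hnc) (hv k)⟩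

theorem nn_pm (F : Full h NN J A S c) {m : (Module.End K W)ˣ} (hm : m ∈ NN) :
    F.Tu * m = m * F.Tu ∨ F.Tu * m = -(m * F.Tu) := by
  rcases F.Tu_comm hm with ⟨_, h1⟩ | ⟨_, h1⟩
  · exact Or.inl h1
  · exact Or.inr h1

/-- a perfect subgroup of a commutative group is trivial -/
theorem perfect_bot {G : Type*} [Group G] {EE C : Subgroup G} (hp : ⁅EE, EE⁆ = EE) (hE : EE ≤ C)
    (hC : ∀ g ∈ C, ∀ g' ∈ C, g * g' = g' * g) : EE = ⊥ := by
  rw [← hp, eq_bot_iff, commutator_le]
  intro a ha b hb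
  rw [mem_bot, commutatorElement_def, hC a (hE ha) b (hE hb)]
  group

/-- the case of one orbit sum -/
theorem one (F : Full h NN J A S c) {v : W} (hS : S = {v}) {EE : Subgroup (Module.End K W)ˣ}
    (hp : ⁅EE, EE⁆ = EE) (hE : EE ≤ cen h NN) : ∃ t, Tw h NN EE J t := by
  have hv : v ∈ S := by rw [hS]; exact Finset.mem_singleton_self v
  have hall : ∀ x ∈ S, x = v := fun x hx => by rw [hS] at hx; exact Finset.mem_singleton.1 hx
  have hbot : EE = ⊥ := perfect_bot hp hE (F.comm_of_distinct fun a ha b hb hab =>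
    absurd ((hall a ha).trans (hall b hb).symm) hab)
  refine ⟨F.Tu, F.Tu_iso, F.Tu_J, fun n hn => F.nn_pm hn, fun g hg => ?_, ?_⟩
  · rw [hbot, mem_bot] at hg
    rw [hg, one_mul, mul_one]
  · by_cases hcm : ∀ n ∈ NN, n ∈ A
    · right
      refine ⟨fun n hn m hm => F.M.comm n (hcm n hn) m (hcm m hm), hbot, v, F.o1 hv, fun u => ?_⟩
      have h1 := F.exp u
      have h2 : Dat.Tr h NN (fun _ => (1 : K)) v v u = Dat.kap K F.M • u := by
        rw [← h1, hS, Finset.sum_singleton]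
      rw [Dat.Tr_apply] at h2
      have h3 : ∀ n : ↥NN, ∃ x y : K, ((fun _ => (1 : K)) (n : (Module.End K W)ˣ) *
          h ((n : (Module.End K W)ˣ) • v) u) • ((n : (Module.End K W)ˣ) • v) = x • v + y • J • v := by
        intro n
        rcases F.smul_cases hcm hv n.2 with h4 | h4 | h4 | h4
        · exact ⟨1 * h v u, 0, by rw [h4, zero_smul, add_zero]⟩
        · exact ⟨-(1 * h (-v) u), 0, by rw [h4, zero_smul, add_zero, smul_neg, neg_smul]⟩
        · exact ⟨0, 1 * h (J • v) u, by rw [h4, zero_smul, zero_add]⟩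
        · exact ⟨0, -(1 * h (-(J • v)) u), by rw [h4, zero_smul, zero_add, smul_neg, neg_smul]⟩
      choose x y hxy using h3
      rw [Finset.sum_congr rfl fun n _ => hxy n, Finset.sum_add_distrib, ← Finset.sum_smul, ← Finset.sum_smul] at h2
      refine ⟨(Dat.kap K F.M)⁻¹ * ∑ n, x n, (Dat.kap K F.M)⁻¹ * ∑ n, y n, ?_⟩
      rw [mul_smul, mul_smul, ← smul_add, h2, smul_smul, inv_mul_cancel₀ F.kap, one_smul]
    · left
      push Not at hcm
      exact F.Tu_mem hcm

/-- replace `v₂` by `n v₂` -/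
theorem replace (F : Full h NN J A S c) {v₁ v₂ : W} (hS : ∀ x, x ∈ S ↔ x = v₁ ∨ x = v₂) (hne : v₁ ≠ v₂)
    {n : (Module.End K W)ˣ} (hn : n ∈ NN) : v₁ ≠ n • v₂ ∧ ∃ S' : Finset W, (∀ x, x ∈ S' ↔ x = v₁ ∨ x = n • v₂) ∧
      Full h NN J A S' c := by
  classical
  have hv₁ : v₁ ∈ S := (hS _).2 (Or.inl rfl)
  have hv₂ : v₂ ∈ S := (hS _).2 (Or.inr rfl)
  have hS2 : S = {v₁, v₂} := by ext x; rw [hS, Finset.mem_insert, Finset.mem_singleton]
  have z1 : ∀ m ∈ NN, h (m • v₁) (n • v₂) = 0 := by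
    intro m hm
    rw [← F.Y.orth v₁ hv₁ v₂ hv₂ hne (n⁻¹ * m) (mul_mem (inv_mem hn) hm),
      ← F.D.iso hn ((n⁻¹ * m) • v₁) v₂, ← mul_smul, mul_inv_cancel_left]
  have z2 : ∀ m ∈ NN, h (m • n • v₂) v₁ = 0 := by
    intro m hm
    rw [← mul_smul]
    exact F.Y.orth v₂ hv₂ v₁ hv₁ (Ne.symm hne) (m * n) (mul_mem hm hn)
  have hne' : v₁ ≠ n • v₂ := by
    intro h0
    have h1 := z1 1 (one_mem NN)
    rw [one_smul, ← h0, F.o1 hv₁] at h1
    exact one_ne_zero h1
  refine ⟨hne', {v₁, n • v₂}, fun x => by simp, F.D, F.M, ⟨?_, ?_, ?_⟩, ?_, F.kap, F.sg, F.cJ, F.cA⟩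
  · intro x hx
    rcases (by simpa using hx : x = v₁ ∨ x = n • v₂) with rfl | rfl
    · exact F.Y.eig _ hv₁
    · exact F.eig_smul (F.Y.eig v₂ hv₂) hn
  · intro x hx
    rcases (by simpa using hx : x = v₁ ∨ x = n • v₂) with rfl | rfl
    · exact F.o1 hv₁
    · rw [F.D.iso hn]; exact F.o1 hv₂
  · intro x hx y hy hxy m hm
    rcases (by simpa using hx : x = v₁ ∨ x = n • v₂) with rfl | rfl
    · rcases (by simpa using hy : y = x ∨ y = n • v₂) with rfl | rfl
      · exact absurd rfl hxy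
      · exact z1 m hm
    · rcases (by simpa using hy : y = v₁ ∨ y = n • v₂) with rfl | rfl
      · exact z2 m hm
      · exact absurd rfl hxy
  · intro u
    rw [← F.exp u, Finset.sum_pair hne']
    have h1 : ∀ f : W → W, ∑ w ∈ S, f w = f v₁ + f v₂ := fun f => by rw [hS2]; exact Finset.sum_pair hne
    rw [h1 fun w => Dat.Tr h NN (fun _ => (1 : K)) w w u]
    congr 1
    rw [Dat.Tr_apply, Dat.Tr_apply]
    refine Fintype.sum_equiv (Equiv.mulRight (⟨n, hn⟩ : ↥NN)) _ _ fun m => ?_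
    change (1 * h ((m : (Module.End K W)ˣ) • n • v₂) u) • ((m : (Module.End K W)ˣ) • n • v₂) =
      (1 * h (((m : (Module.End K W)ˣ) * n) • v₂) u) • (((m : (Module.End K W)ˣ) * n) • v₂)
    rw [mul_smul (m : (Module.End K W)ˣ) n v₂]

/-- the case of two orbit sums -/
theorem two (F : Full h NN J A S c) {v₁ v₂ : W} (hS : ∀ x, x ∈ S ↔ x = v₁ ∨ x = v₂) (hne : v₁ ≠ v₂)
    {EE : Subgroup (Module.End K W)ˣ} (hp : ⁅EE, EE⁆ = EE) (hE : EE ≤ cen h NN) : ∃ t, Tw h NN EE J t := by
  have hv₁ : v₁ ∈ S := (hS _).2 (Or.inl rfl)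
  have hv₂ : v₂ ∈ S := (hS _).2 (Or.inr rfl)
  have hall : ∀ x ∈ S, x = v₁ ∨ x = v₂ := fun x hx => (hS x).1 hx
  by_cases hd : ∀ n ∈ NN, ¬ Dat.Same F.M (n • v₂) v₁
  · -- different orbits
    have hd' : ∀ v ∈ S, ∀ w ∈ S, v ≠ w → ∀ n ∈ NN, ¬ Dat.Same F.M (n • w) v := by
      intro v hv w hw hvw n hn hs
      rcases hall v hv with h1 | h1
      · rcases hall w hw with h2 | h2
        · exact hvw (h1.trans h2.symm)
        · rw [h1, h2] at hs; exact hd n hn hs
      · rcases hall w hw with h2 | h2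
        · rw [h1, h2] at hs
          refine hd n⁻¹ (inv_mem hn) fun a ha => ?_
          have h3 := hs a ha
          rcases F.D.comm a (F.M.le ha.1) n hn with h4 | h4
          · have h5 : a • n • v₁ = n • a • v₁ := by rw [← mul_smul, h4, mul_smul]
            have h4' : a * n⁻¹ = n⁻¹ * a := by
              rw [mul_inv_eq_iff_eq_mul, mul_assoc, h4, inv_mul_cancel_left]
            have h6 : a • n⁻¹ • v₂ = n⁻¹ • a • v₂ := by rw [← mul_smul, h4', mul_smul]
            rcases h3 with ⟨h7, h8⟩ | ⟨h7, h8⟩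
            · left
              refine ⟨by rw [h6, h8], ?_⟩
              rw [h5] at h7
              exact smul_left_cancel n h7
            · right
              refine ⟨by rw [h6, h8, smul_neg], ?_⟩
              rw [h5, ← smul_neg] at h7
              exact smul_left_cancel n h7
          · have h5 : a • n • v₁ = -(n • a • v₁) := by rw [← mul_smul, h4, Units.neg_smul, mul_smul]
            have h4' : a * n⁻¹ = -(n⁻¹ * a) := by
              rw [mul_inv_eq_iff_eq_mul, neg_mul, mul_assoc, h4, mul_neg, inv_mul_cancel_left, neg_neg]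
            have h6 : a • n⁻¹ • v₂ = -(n⁻¹ • a • v₂) := by rw [← mul_smul, h4', Units.neg_smul, mul_smul]
            rcases h3 with ⟨h7, h8⟩ | ⟨h7, h8⟩
            · right
              refine ⟨by rw [h6, h8], ?_⟩
              rw [h5, neg_eq_iff_eq_neg, ← smul_neg] at h7
              exact smul_left_cancel n h7
            · left
              refine ⟨by rw [h6, h8, smul_neg, neg_neg], ?_⟩
              rw [h5, neg_inj] at h7
              exact smul_left_cancel n h7
        · exact hvw (h1.trans h2.symm)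
    have hbot : EE = ⊥ := perfect_bot hp hE (F.comm_of_distinct hd')
    refine ⟨F.Tu, F.Tu_iso, F.Tu_J, fun n hn => F.nn_pm hn, fun g hg => ?_, Or.inl ?_⟩
    · rw [hbot, mem_bot] at hg
      rw [hg, one_mul, mul_one]
    · by_cases hcm : ∀ n ∈ NN, n ∈ A
      · exact F.Tu_mem_two hcm hv₁ hv₂ hne hall
      · push Not at hcm
        exact F.Tu_mem hcm
  · push Not at hd
    obtain ⟨n, hn, hs⟩ := hd
    obtain ⟨hne', S', hS', F'⟩ := F.replace hS hne hn
    have X : F'.Two v₁ (n • v₂) := ⟨(hS' _).2 (Or.inl rfl), (hS' _).2 (Or.inr rfl), hne', F'.same_symm hs,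
      fun x hx => (hS' x).1 hx⟩
    refine ⟨F'.Tu * F'.Ru X, mul_mem F'.Tu_iso (F'.Ru_iso X), F'.TR_J X, fun m hm => ?_, F'.perfect_comm X hp hE,
      Or.inl ?_⟩
    · rcases F'.TR_comm X hm with ⟨_, h1⟩ | ⟨_, h1⟩
      · exact Or.inl h1
      · exact Or.inr h1
    · by_cases hcm : ∀ n ∈ NN, n ∈ A
      · exact F'.TR_mem_two hcm X
      · push Not at hcm
        exact F'.TR_mem hcm X

end Full

/-- **The structure lemma**, symmetric form. -/
theorem structure_sym [Finite K] [Finite W] [Nontrivial W] {h : LinearMap.BilinForm K W}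
    {NN : Subgroup (Module.End K W)ˣ} {J : (Module.End K W)ˣ} (D : Dat h NN J) {EE : Subgroup (Module.End K W)ˣ}
    (hp : ⁅EE, EE⁆ = EE) (hE : EE ≤ cen h NN) :
    (∃ (v : Fin 3 → W) (j : Fin 3 → (Module.End K W)ˣ), Three h NN J v j) ∨ (∃ t, Tw h NN EE J t) := by
  classical
  have hfE : Finite (Module.End K W) := Finite.of_injective (fun f => (f : W → W)) DFunLike.coe_injective
  have hfN : Fintype ↥NN := Fintype.ofFinite _
  obtain ⟨A, S, c, F⟩ := exists_full D
  by_cases h3 : 2 < S.card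
  · exact Or.inl (F.three h3)
  · right
    have h4 : S.card = 0 ∨ S.card = 1 ∨ S.card = 2 := by omega
    rcases h4 with h5 | h5 | h5
    · exfalso
      rw [Finset.card_eq_zero] at h5
      obtain ⟨u, hu⟩ := exists_ne (0 : W)
      apply hu
      have h6 : ∀ f : W → W, ∑ w ∈ S, f w = 0 := fun f => by rw [h5, Finset.sum_empty]
      exact (F.sum_E u).symm.trans (h6 _)
    · obtain ⟨v, hv⟩ := Finset.card_eq_one.1 h5
      exact F.one hv hp hE
    · obtain ⟨v, w, hvw, hS⟩ := Finset.card_eq_two.1 h5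
      exact F.two (fun x => by rw [hS, Finset.mem_insert, Finset.mem_singleton]) hvw hp hE

end Cfsg.Agent.H527.C3
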